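import Groth.Agent.FlatA.FibreDim
import Groth.Agent.VarietyB.DimTop
import Groth.Agent.CalgC.LocalDim
import Groth.Agent.Ega4C.FibreTower
import Mathlib.RingTheory.LocalRing.ResidueField.Fiber

/-!
# Local dimension of the fibres of `Spec A → Spec R` through the minimal primes of the fibre ring
-/

set_option autoImplicit false
universe u
open CategoryTheory AlgebraicGeometry

namespace Groth.Agent.Dual.H319.FibDim

open Groth.Agent.Ega4C

/-- `fibreDimAt` of `Spec A → Spec R` at `q` is the local dimension of the fibre ring. -/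
theorem fibreDimAt_spec {R A : Type u} [CommRing R] [CommRing A] [Algebra R A]
    (p : PrimeSpectrum R) (Q : PrimeSpectrum (p.asIdeal.Fiber A)) (q : PrimeSpectrum A)
    (hq : q.asIdeal = FibreTower.ctr p.asIdeal Q.asIdeal) :
    FlatMor.fibreDimAt (Spec.map (CommRingCat.ofHom (algebraMap R A))) q =
      FlatMor.localDim (PrimeSpectrum (p.asIdeal.Fiber A)) Q := by
  have hp : PrimeSpectrum.comap (algebraMap R A) q = p := by
    apply PrimeSpectrum.ext
    change q.asIdeal.comap (algebraMap R A) = p.asIdeal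
    rw [hq]
    exact FibreTower.ctr_comap p.asIdeal Q.asIdeal
  subst hp
  let e := PrimeSpectrum.preimageHomeomorphFiber R A (PrimeSpectrum.comap (algebraMap R A) q)
  have h1 := VarietyB.DimTop.localDim_eq_of_homeomorph e ⟨q, rfl⟩
  have h2 : e ⟨q, rfl⟩ = Q := by
    have h3 : e.symm Q = ⟨q, rfl⟩ := Subtype.ext (PrimeSpectrum.ext hq.symm)
    rw [← h3, Homeomorph.apply_symm_apply]
  rw [h2] at h1
  exact (FlatA.FibreDim.fibreDimAt_eq (Spec.map (CommRingCat.ofHom (algebraMap R A))) q).trans h1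

theorem fibreDimAt_field {k C : Type u} [Field k] [CommRing C] [Algebra k C] (Q : PrimeSpectrum C) :
    FlatMor.fibreDimAt (Spec.map (CommRingCat.ofHom (algebraMap k C))) Q =
      FlatMor.localDim (PrimeSpectrum C) Q := by
  have hu : ∀ (S : Set (PrimeSpectrum C)) (hS : S = Set.univ) (x : S),
      FlatMor.localDim S x = FlatMor.localDim (PrimeSpectrum C) x := by
    intro S hS x
    subst hS
    exact VarietyB.DimTop.localDim_eq_of_homeomorph (Homeomorph.Set.univ _) x
  refine (FlatA.FibreDim.fibreDimAt_eq (Spec.map (CommRingCat.ofHom (algebraMap k C))) Q).trans ?_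
  refine hu (PrimeSpectrum.comap (algebraMap k C) ⁻¹' {PrimeSpectrum.comap (algebraMap k C) Q})
    ?_ ⟨Q, rfl⟩
  rw [Set.eq_univ_iff_forall]
  intro x
  exact Subsingleton.elim (α := PrimeSpectrum k) _ _

theorem localDim_le (k : Type u) [Field k] {S : Type u} [CommRing S] [Algebra k S] [Algebra.FiniteType k S]
    (Q : PrimeSpectrum S) (d : WithBot ℕ∞)
    (h : ∀ q ∈ minimalPrimes S, q ≤ Q.asIdeal → ringKrullDim (S ⧸ q) ≤ d) :
    FlatMor.localDim (PrimeSpectrum S) Q ≤ d := by
  have : IsNoetherianRing S := Algebra.FiniteType.isNoetherianRing k S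
  obtain ⟨m, hm, hpm, hmin⟩ := CalgC.LocalDim.exists_isMaximal_minimalPrimes k Q.asIdeal
  refine (CalgC.LocalDim.localDim_le_height k Q.asIdeal m hpm).trans ?_
  obtain ⟨q, hq, M, hM, hcomap, hMm⟩ := CalgC.LocalDim.exists_minimalPrimes_height_eq m
  have hqp : q.IsPrime := hq.1.1
  have hqm : q ≤ m := by
    rw [← hcomap]; intro x hx
    rw [Ideal.mem_comap, Ideal.Quotient.eq_zero_iff_mem.mpr hx]
    exact M.zero_mem
  refine le_trans ?_ (h q hq (hmin q hq hqm))
  rw [← hMm]
  exact Ideal.height_le_ringKrullDim_of_isPrime (I := M)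

/-- The other inequality. -/
theorem le_localDim (k : Type u) [Field k] {S : Type u} [CommRing S] [Algebra k S] [Algebra.FiniteType k S]
    (Q : PrimeSpectrum S) (q : Ideal S) (hq : q ∈ minimalPrimes S) (hqQ : q ≤ Q.asIdeal) :
    ringKrullDim (S ⧸ q) ≤ FlatMor.localDim (PrimeSpectrum S) Q := by
  have hqp : q.IsPrime := hq.1.1
  rw [show Q = ⟨Q.asIdeal, Q.2⟩ from rfl, CalgC.LocalDim.localDim_eq_iInf_height k]
  refine le_iInf fun m => ?_
  have := m.2.1
  refine le_trans ?_ (CalgC.LocalDim.ringKrullDim_quotient_le_height k q m.1 (hqQ.trans m.2.2))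
  exact le_add_of_nonneg_left (WithBot.coe_le_coe.mpr zero_le)

end Groth.Agent.Dual.H319.FibDim
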