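import Groth.Agent.LoccohB.GorDesc
import Groth.Agent.LoccohB.CMSch
import Groth.Agent.Ega4C.FibreTower
import Groth.Agent.PerfA.ExactD

/-!
# The top cohomology and derived base change to a quotient of the local ring

* `isLE_LBaseChange`: `- ⊗^L_A C` is right t-exact.
* `isLE_of_LBaseChange`: `φ : A → C` surjective, `A`, `C` local, `A` Noetherian, `K` bounded above with finite
  cohomology and `K ⊗^L C ∈ D^{≤ c}`; then `K ∈ D^{≤ c}`.
* `fibre_sup_iff`: for a prime `Q` of `κ(p) ⊗ A` over `q`: `H^i(ω)_q = 0` for all `i > c` iff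
  `H^i(ω ⊗^L κ(p) ⊗ A)_Q = 0` for all `i > c`.
-/

set_option autoImplicit false
universe u

open CategoryTheory CategoryTheory.Limits

attribute [local instance] HasDerivedCategory.standard

namespace Groth.Agent.Dual.H319.Sup

open DerivedCategory Groth.Agent.LoccohB Groth.Agent.LoccohB.GorNak Groth.Agent.LoccohB.GorDesc
  Groth.Agent.LoccohB.LBC Groth.Agent.LoccohB.Devissage Groth.Agent.Ega4C

section

variable {A C : Type u} [CommRing A] [CommRing C] (φ : A →+* C) [DRing.HasLBaseChange φ]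

theorem isLE_LBaseChange (K : Dual.D A) (c : ℤ) [K.IsLE c] :
    ((DRing.LBaseChange φ).obj K).IsLE c := by
  have h : (TStructure.t : Triangulated.TStructure (Dual.D C)).IsLE
      ((DRing.LBaseChange φ).obj K) c := by
    rw [TStructure.t.isLE_iff_orthogonal c (c + 1) rfl]
    intro Y f hY
    have hY' : Y.IsGE (c + 1) := hY
    have h1 : ((DRing.restrictD φ).obj Y).IsGE (c + 1) := PerfA.ExactD.isGE_map _ _ _
    apply ((lbcAdj φ).homEquiv _ _).injective
    have h2 : ∀ g : K ⟶ (DRing.restrictD φ).obj Y, g = 0 := fun g =>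
      (TStructure.t : Triangulated.TStructure (Dual.D A)).zero g c (c + 1) (by lia)
    rw [h2 (((lbcAdj φ).homEquiv K Y) f), h2 (((lbcAdj φ).homEquiv K Y) 0)]
  exact h

theorem isLE_of_LBaseChange [IsLocalRing A] [IsNoetherianRing A] [IsLocalRing C]
    (hφ : Function.Surjective φ) (K : Dual.D A) (b c : ℤ) [K.IsLE b]
    (hf : ∀ i, Module.Finite A (Dual.HD A K i))
    (h : ((DRing.LBaseChange φ).obj K).IsLE c) : K.IsLE c := by
  let κ : Type u := C ⧸ IsLocalRing.maximalIdeal C
  have hκ : IsSimpleModule C (ModuleCat.of C κ) :=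
    isSimpleModule_iff_quot_maximal.2 ⟨_, inferInstance, ⟨LinearEquiv.refl C _⟩⟩
  have hκ' := isSimpleModule_restrict φ hφ (ModuleCat.of C κ)
  refine isLE_of_hom ((ModuleCat.restrictScalars.{u} φ).obj (ModuleCat.of C κ)) K b c hf ?_
  intro i hi
  have h1 : Subsingleton ((DRing.LBaseChange φ).obj K ⟶
      (singleFunctor (ModuleCat.{u} C) i).obj (ModuleCat.of C κ)) := by
    refine ⟨fun f g => ?_⟩
    have h2 : ∀ g : (DRing.LBaseChange φ).obj K ⟶
        (singleFunctor (ModuleCat.{u} C) i).obj (ModuleCat.of C κ), g = 0 := fun g =>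
      (TStructure.t : Triangulated.TStructure (Dual.D C)).zero g c i hi
    rw [h2 f, h2 g]
  exact ((((lbcAdj φ).homEquiv _ _).trans
    (Iso.homCongr (Iso.refl _) (restrictSg φ i (ModuleCat.of C κ)))).subsingleton_congr).1 h1

end

section

variable {A : Type u} [CommRing A]

/-- `H^i(K)_q = 0` for `i > c` in terms of the localized complex. -/
theorem isLE_localization_iff (K : Dual.D A) (q : PrimeSpectrum A)
    [DRing.HasLBaseChange (algebraMap A (Localization.AtPrime q.asIdeal))] (c : ℤ) :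
    ((DRing.LBaseChange (algebraMap A (Localization.AtPrime q.asIdeal))).obj K).IsLE c ↔
      ∀ i : ℤ, c < i → q ∉ Module.support A (Dual.HD A K i) := by
  rw [isLE_iff]
  refine forall_congr' fun i => imp_congr_right fun _ => ?_
  rw [Module.notMem_support_iff]
  obtain ⟨e⟩ := CMSch.lbcHD_localization q.asIdeal.primeCompl K i
  rw [← e.toEquiv.subsingleton_congr]
  exact ModuleCat.isZero_iff_subsingleton

/-- The top cohomology of `ω` at `q` and of its derived base change to a quotient of `A_q` agree. -/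
theorem sup_iff [IsNoetherianRing A] (ω : Dual.D A) (b : ℤ) [ω.IsLE b]
    (hfin : ∀ i, Module.Finite A (Dual.HD A ω i)) {C : Type u} [CommRing C] (φ₁ : A →+* C)
    [DRing.HasLBaseChange φ₁] (Q : PrimeSpectrum C)
    (hs : Function.Surjective (Localization.localRingHom (Q.asIdeal.comap φ₁) Q.asIdeal φ₁ rfl))
    (c : ℤ) :
    (∀ i : ℤ, c < i → PrimeSpectrum.comap φ₁ Q ∉ Module.support A (Dual.HD A ω i)) ↔
      (∀ i : ℤ, c < i → Q ∉ Module.support C (Dual.HD C ((DRing.LBaseChange φ₁).obj ω) i)) := by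
  let φ₂ : C →+* Localization.AtPrime Q.asIdeal := algebraMap _ _
  let φ₃ : A →+* Localization.AtPrime Q.asIdeal := φ₂.comp φ₁
  let q : Ideal A := Q.asIdeal.comap φ₁
  let φ₄ : A →+* Localization.AtPrime q := algebraMap _ _
  let φ₅ : Localization.AtPrime q →+* Localization.AtPrime Q.asIdeal :=
    Localization.localRingHom q Q.asIdeal φ₁ rfl
  have hcomp : φ₃ = φ₅.comp φ₄ :=
    RingHom.ext fun x => (Localization.localRingHom_to_map q Q.asIdeal φ₁ rfl x).symm
  have h2 : DRing.HasLBaseChange φ₂ := hasLBaseChange _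
  have h3 : DRing.HasLBaseChange φ₃ := hasLBaseChange _
  have h4 : DRing.HasLBaseChange φ₄ := hasLBaseChange _
  have h5 : DRing.HasLBaseChange φ₅ := hasLBaseChange _
  have k1 : ((DRing.LBaseChange φ₄).obj ω).IsLE c ↔
      ∀ i : ℤ, c < i → PrimeSpectrum.comap φ₁ Q ∉ Module.support A (Dual.HD A ω i) :=
    isLE_localization_iff ω ⟨q, inferInstance⟩ c
  have k2 : ((DRing.LBaseChange φ₂).obj ((DRing.LBaseChange φ₁).obj ω)).IsLE c ↔
      ∀ i : ℤ, c < i → Q ∉ Module.support C (Dual.HD C ((DRing.LBaseChange φ₁).obj ω) i) :=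
    isLE_localization_iff _ Q c
  rw [← k1, ← k2]
  let e : (DRing.LBaseChange φ₅).obj ((DRing.LBaseChange φ₄).obj ω) ≅
      (DRing.LBaseChange φ₂).obj ((DRing.LBaseChange φ₁).obj ω) :=
    (lbcComp φ₄ φ₅ φ₃ hcomp).app ω ≪≫ ((lbcComp φ₁ φ₂ φ₃ rfl).app ω).symm
  have hNq : IsNoetherianRing (Localization.AtPrime q) :=
    IsLocalization.isNoetherianRing q.primeCompl _ inferInstance
  constructor
  · intro h
    have h' : ((DRing.LBaseChange φ₄).obj ω).IsLE c := h
    have h6 := isLE_LBaseChange φ₅ ((DRing.LBaseChange φ₄).obj ω) c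
    exact TStructure.t.isLE_of_iso e c
  · intro h
    have h' : ((DRing.LBaseChange φ₅).obj ((DRing.LBaseChange φ₄).obj ω)).IsLE c :=
      have : ((DRing.LBaseChange φ₂).obj ((DRing.LBaseChange φ₁).obj ω)).IsLE c := h
      TStructure.t.isLE_of_iso e.symm c
    have h7 := isLE_LBaseChange φ₄ ω b
    refine isLE_of_LBaseChange φ₅ hs ((DRing.LBaseChange φ₄).obj ω) b c ?_ h'
    intro i
    obtain ⟨e'⟩ := CMSch.lbcHD_localization q.primeCompl ω i
    have := hfin i
    exact Module.Finite.equiv e'.symm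

variable {R : Type u} [CommRing R] [Algebra R A]

/-- The top cohomology of `ω` at `q` and of its derived restriction to the fibre agree. -/
theorem fibre_sup_iff [IsNoetherianRing A] (ω : Dual.D A) (b : ℤ) [ω.IsLE b]
    (hfin : ∀ i, Module.Finite A (Dual.HD A ω i)) (p : Ideal R) [p.IsPrime]
    [DRing.HasLBaseChange (Algebra.TensorProduct.includeRight : A →ₐ[R] p.Fiber A).toRingHom]
    (Q : PrimeSpectrum (p.Fiber A)) (q : PrimeSpectrum A)
    (hq : q.asIdeal = FibreTower.ctr p Q.asIdeal) (c : ℤ) :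
    (∀ i : ℤ, c < i → q ∉ Module.support A (Dual.HD A ω i)) ↔
      (∀ i : ℤ, c < i → Q ∉ Module.support (p.Fiber A) (Dual.HD (p.Fiber A) ((DRing.LBaseChange
        (Algebra.TensorProduct.includeRight : A →ₐ[R] p.Fiber A).toRingHom).obj ω) i)) := by
  have h := sup_iff ω b hfin (Algebra.TensorProduct.includeRight : A →ₐ[R] p.Fiber A).toRingHom Q
    (localRingHom_fiber_surjective p Q.asIdeal _ rfl) c
  rw [show q = PrimeSpectrum.comap
    (Algebra.TensorProduct.includeRight : A →ₐ[R] p.Fiber A).toRingHom Q from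
      PrimeSpectrum.ext hq]
  exact h

end

end Groth.Agent.Dual.H319.Sup
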