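import Groth.Agent.Dual.H319.GenPt
import Groth.Agent.Dual.H319.Sup
import Groth.Agent.Dual.H319.FibDim
import Groth.Agent.S1801
import Groth.Agent.S1807
import Groth.Agent.LoccohB.ShriekVan

/-!
# Cohen–Macaulay fibres and the cohomology of `ω_{A/R} = φ^!(R)`

`R → A` flat of finite type, Noetherian, `q` a prime of `A`, `p = q ∩ R`, `Q` the prime of `κ(p) ⊗ A` over `q`,
`d` the local dimension of the fibre at `q`. Then `H^{-d}(ω)_q ≠ 0`, `H^i(ω)_q = 0` for `i < -d`, and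
`(κ(p) ⊗ A)_Q` is Cohen–Macaulay iff `H^i(ω)_q = 0` for `i ≠ -d`, iff exactly one `H^i(ω)_q` is nonzero.
-/

set_option autoImplicit false
universe u

open CategoryTheory AlgebraicGeometry
open scoped TensorProduct

attribute [local instance] HasDerivedCategory.standard

namespace Groth.Agent.Dual.H319.Core

open Groth.Agent.LoccohB Groth.Agent.Ega4C

section Dim

theorem exists_minimalPrime (k : Type u) [Field k] {S : Type u} [CommRing S] [Algebra k S]
    [Algebra.FiniteType k S] (Q : PrimeSpectrum S) (d : ℕ)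
    (h : FlatMor.localDim (PrimeSpectrum S) Q = d) :
    ∃ q₀ : PrimeSpectrum S, q₀.asIdeal ∈ minimalPrimes S ∧ q₀ ≤ Q ∧
      ringKrullDim (S ⧸ q₀.asIdeal) = d := by
  by_contra hcon
  push Not at hcon
  have key : ∀ q ∈ minimalPrimes S, q ≤ Q.asIdeal →
      ∃ e : ℕ, ringKrullDim (S ⧸ q) = e ∧ e < d := by
    intro q hq hqQ
    have hqp : q.IsPrime := hq.1.1
    obtain ⟨e, -, he⟩ := Ega4B.DimFT.exists_dim k (S ⧸ q)
    have h1 := FibDim.le_localDim k Q q hq hqQ
    rw [he, h] at h1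
    have h2 : e ≤ d := by exact_mod_cast h1
    have h3 := hcon ⟨q, hqp⟩ hq hqQ
    refine ⟨e, he, lt_of_le_of_ne h2 ?_⟩
    rintro rfl
    exact h3 he
  obtain ⟨q, hq, hqQ⟩ := Ideal.exists_minimalPrimes_le (I := (⊥ : Ideal S)) (J := Q.asIdeal) bot_le
  obtain ⟨e, he, hed⟩ := key q hq hqQ
  have h4 : FlatMor.localDim (PrimeSpectrum S) Q ≤ ((d - 1 : ℕ) : WithBot ℕ∞) := by
    refine FibDim.localDim_le k Q _ fun q' hq' hq'Q => ?_
    obtain ⟨e', he', hed'⟩ := key q' hq' hq'Q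
    rw [he']
    exact_mod_cast (by omega : e' ≤ d - 1)
  rw [h] at h4
  have h5 : d ≤ d - 1 := by exact_mod_cast h4
  omega

end Dim

section Abs

/-- Combinatorics: two subsets of `ℤ` containing `-d`, contained in `[-d, ∞)`, with the same upper bounds. -/
theorem existsUnique_iff (S : ℤ → Prop) (m : ℤ) (h1 : S m) (h2 : ∀ i, S i → m ≤ i) :
    (∃! i, S i) ↔ ∀ i, m < i → ¬ S i := by
  constructor
  · rintro ⟨j, -, hu⟩ i hi hSi
    have a := hu i hSi
    have b := hu m h1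
    omega
  · intro h
    refine ⟨m, h1, fun j hj => ?_⟩
    have := h2 j hj
    by_contra hne
    exact h j (by omega) hj

end Abs

section Main

variable {R A : Type u} [CommRing R] [CommRing A] [IsNoetherianRing R] [IsNoetherianRing A]
  [Algebra R A] [Module.Flat R A] (n : ℕ) (ψ : MvPolynomial (Fin n) R →ₐ[R] A)
  (hψ : Function.Surjective ψ) [DRing.HasLBaseChange (algebraMap R (MvPolynomial (Fin n) R))]
  (Rψ : Dual.D (MvPolynomial (Fin n) R) ⥤ Dual.D A) (adj : DRing.restrictD ψ.toRingHom ⊣ Rψ)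

include hψ adj

theorem exists_fibre_iso (k : Type u) [Field k] [Algebra R k]
    [DRing.HasLBaseChange (Algebra.TensorProduct.includeRight : A →ₐ[R] k ⊗[R] A).toRingHom] :
    IsNoetherianRing (k ⊗[R] A) ∧
    ∃ (m : ℕ) (ψ' : MvPolynomial (Fin m) k →ₐ[k] (k ⊗[R] A)) (_ : Function.Surjective ψ')
      (_ : DRing.HasLBaseChange (algebraMap k (MvPolynomial (Fin m) k))),
      Nonempty ((DRing.LBaseChange
        (Algebra.TensorProduct.includeRight : A →ₐ[R] k ⊗[R] A).toRingHom).obj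
          (Dual2.shriekVia n Rψ (Dual.inD R R)) ≅
        Dual2.shriekVia m (RAdj.RCoext ψ'.toRingHom) (Dual.inD k k)) := by
  have : Algebra.FiniteType R A := Algebra.FiniteType.iff_quotient_mvPolynomial''.2 ⟨n, ψ, hψ⟩
  have : IsNoetherianRing (k ⊗[R] A) := Algebra.FiniteType.isNoetherianRing k (k ⊗[R] A)
  obtain ⟨m, ψ', hψ'⟩ := Algebra.FiniteType.iff_quotient_mvPolynomial''.1
    (inferInstance : Algebra.FiniteType k (k ⊗[R] A))
  have i1 := Groth.Agent.LoccohB.LBC.hasLBaseChange (algebraMap R k)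
  have i2 := Groth.Agent.LoccohB.LBC.hasLBaseChange (algebraMap k (MvPolynomial (Fin m) k))
  obtain ⟨e⟩ := S1807.result R k A n ψ hψ Rψ adj m ψ' hψ'
    (Groth.Agent.LoccohB.RAdj.RCoext ψ'.toRingHom) (Groth.Agent.LoccohB.RAdj.coextAdj _)
    (Dual.inD R R)
  exact ⟨this, m, ψ', hψ', i2, ⟨e ≪≫ Groth.Agent.LoccohB.RelMu.shriekViaIso m _
      (Groth.Agent.LoccohB.LBC.lbcSelfIso (algebraMap R k) 0)⟩⟩

/-- The supports of the cohomology modules of `ω_{A/R}` at `q` and of its restriction to the fibre at `Q`. -/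
theorem support_facts (p : PrimeSpectrum R)
    [DRing.HasLBaseChange
      (Algebra.TensorProduct.includeRight : A →ₐ[R] p.asIdeal.Fiber A).toRingHom]
    (Q : PrimeSpectrum (p.asIdeal.Fiber A)) (q : PrimeSpectrum A)
    (hq : q.asIdeal = FibreTower.ctr p.asIdeal Q.asIdeal) (d : ℕ)
    (hd : FlatMor.fibreDimAt (Spec.map (CommRingCat.ofHom (algebraMap R A))) q = d) :
    q ∈ Module.support A (Dual.HD A (Dual2.shriekVia n Rψ (Dual.inD R R)) (-(d : ℤ))) ∧
    (∀ i : ℤ, q ∈ Module.support A (Dual.HD A (Dual2.shriekVia n Rψ (Dual.inD R R)) i) →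
      -(d : ℤ) ≤ i) ∧
    Q ∈ Module.support (p.asIdeal.Fiber A) (Dual.HD (p.asIdeal.Fiber A) ((DRing.LBaseChange
      (Algebra.TensorProduct.includeRight : A →ₐ[R] p.asIdeal.Fiber A).toRingHom).obj
        (Dual2.shriekVia n Rψ (Dual.inD R R))) (-(d : ℤ))) ∧
    (∀ i : ℤ, Q ∈ Module.support (p.asIdeal.Fiber A) (Dual.HD (p.asIdeal.Fiber A)
      ((DRing.LBaseChange
        (Algebra.TensorProduct.includeRight : A →ₐ[R] p.asIdeal.Fiber A).toRingHom).obj
          (Dual2.shriekVia n Rψ (Dual.inD R R))) i) → -(d : ℤ) ≤ i) ∧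
    ((∀ i : ℤ, -(d : ℤ) < i →
        q ∉ Module.support A (Dual.HD A (Dual2.shriekVia n Rψ (Dual.inD R R)) i)) ↔
      (∀ i : ℤ, -(d : ℤ) < i → Q ∉ Module.support (p.asIdeal.Fiber A) (Dual.HD
        (p.asIdeal.Fiber A) ((DRing.LBaseChange (Algebra.TensorProduct.includeRight :
          A →ₐ[R] p.asIdeal.Fiber A).toRingHom).obj (Dual2.shriekVia n Rψ (Dual.inD R R))) i))) := by
  obtain ⟨⟨a, b, hab⟩, hfin, -, -, -⟩ := S1801.result R A n ψ hψ Rψ adj
  have hFT : Algebra.FiniteType R A := Algebra.FiniteType.iff_quotient_mvPolynomial''.2 ⟨n, ψ, hψ⟩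
  have hFC : Algebra.FiniteType p.asIdeal.ResidueField (p.asIdeal.Fiber A) := inferInstance
  obtain ⟨hNC, m, ψ', hψ', hL', ⟨e⟩⟩ := exists_fibre_iso n ψ hψ Rψ adj p.asIdeal.ResidueField
  set ω := Dual2.shriekVia n Rψ (Dual.inD R R) with hω
  set ωC := (DRing.LBaseChange
    (Algebra.TensorProduct.includeRight : A →ₐ[R] p.asIdeal.Fiber A).toRingHom).obj ω with hωC
  have hLE : ω.IsLE b := by
    rw [DerivedCategory.isLE_iff]
    exact fun i hi => ModuleCat.isZero_iff_subsingleton.2 (hab i (Or.inr hi))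
  have esupp : ∀ i : ℤ, Module.support (p.asIdeal.Fiber A) (Dual.HD (p.asIdeal.Fiber A) ωC i) =
      Module.support (p.asIdeal.Fiber A) (Dual.HD (p.asIdeal.Fiber A) (Dual2.shriekVia m
        (RAdj.RCoext ψ'.toRingHom) (Dual.inD p.asIdeal.ResidueField p.asIdeal.ResidueField)) i) :=
    fun i => LinearEquiv.support_eq ((DerivedCategory.homologyFunctor
      (ModuleCat.{u} (p.asIdeal.Fiber A)) i).mapIso e).toLinearEquiv
  have hdQ : FlatMor.localDim (PrimeSpectrum (p.asIdeal.Fiber A)) Q = d := by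
    rw [← FibDim.fibreDimAt_spec p Q q hq, hd]
  obtain ⟨Q₀, hQ₀, hQ₀Q, hQ₀d⟩ := exists_minimalPrime p.asIdeal.ResidueField Q d hdQ
  have hgen : ∀ i : ℤ, Q₀ ∈ Module.support (p.asIdeal.Fiber A)
      (Dual.HD (p.asIdeal.Fiber A) ωC i) ↔ i = -(d : ℤ) := by
    intro i
    rw [esupp i]
    exact GenPt.mem_support_iff p.asIdeal.ResidueField (p.asIdeal.Fiber A) m ψ' hψ'
      (RAdj.RCoext ψ'.toRingHom) (RAdj.coextAdj _) Q₀ hQ₀ d hQ₀d i
  have hsup := fun c : ℤ => Sup.fibre_sup_iff ω b hfin p.asIdeal Q q hq c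
  -- the generic point below `q`
  let q₀ : PrimeSpectrum A := ⟨FibreTower.ctr p.asIdeal Q₀.asIdeal, inferInstance⟩
  have hsup₀ := fun c : ℤ => Sup.fibre_sup_iff ω b hfin p.asIdeal Q₀ q₀ rfl c
  have hq₀q : q₀ ≤ q := by
    change FibreTower.ctr p.asIdeal Q₀.asIdeal ≤ q.asIdeal
    rw [hq]
    exact Ideal.comap_mono hQ₀Q
  have h1 : q ∈ Module.support A (Dual.HD A ω (-(d : ℤ))) := by
    have h2 : ∀ i : ℤ, -(d : ℤ) < i → q₀ ∉ Module.support A (Dual.HD A ω i) :=
      (hsup₀ (-(d : ℤ))).2 fun i hi h3 => by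
        have := (hgen i).1 h3
        omega
    have h4 : ¬ ∀ i : ℤ, -(d : ℤ) - 1 < i → q₀ ∉ Module.support A (Dual.HD A ω i) := by
      rw [hsup₀ (-(d : ℤ) - 1)]
      intro h5
      exact h5 (-(d : ℤ)) (by omega) ((hgen _).2 rfl)
    push Not at h4
    obtain ⟨i, hi, hi'⟩ := h4
    have h5 : i = -(d : ℤ) := by
      by_contra hne
      exact h2 i (by omega) hi'
    subst h5
    exact Module.mem_support_mono hq₀q hi'
  refine ⟨h1, ?_, Module.mem_support_mono hQ₀Q ((hgen _).2 rfl), ?_, hsup _⟩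
  · intro i hi
    by_contra hlt
    rw [not_le] at hlt
    rw [Module.mem_support_iff'] at hi
    obtain ⟨x, hx⟩ := hi
    obtain ⟨s, hs, hsx⟩ := ShriekVan.torsion_HD_shriek n ψ hψ Rψ adj q d hd.le i hlt x
    exact hx s hs hsx
  · intro i hi
    by_contra hlt
    rw [not_le] at hlt
    rw [esupp i, Module.mem_support_iff'] at hi
    obtain ⟨x, hx⟩ := hi
    obtain ⟨s, hs, hsx⟩ := ShriekVan.torsion_HD_shriek m ψ' hψ' (RAdj.RCoext ψ'.toRingHom)
      (RAdj.coextAdj _) Q d (by rw [FibDim.fibreDimAt_field, hdQ]) i hlt x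
    exact hx s hs hsx

/-- `(κ(p) ⊗ A)_Q` is Cohen–Macaulay iff exactly one cohomology module of `ω_{A/R}` is nonzero at `q`. -/
theorem cm_iff_existsUnique (p : PrimeSpectrum R) (Q : PrimeSpectrum (p.asIdeal.Fiber A))
    (q : PrimeSpectrum A) (hq : q.asIdeal = FibreTower.ctr p.asIdeal Q.asIdeal) (d : ℕ)
    (hd : FlatMor.fibreDimAt (Spec.map (CommRingCat.ofHom (algebraMap R A))) q = d) :
    LocCoh.IsCohenMacaulayLocalRing (Localization.AtPrime Q.asIdeal) ↔
      ∃! i : ℤ, q ∈ Module.support A (Dual.HD A (Dual2.shriekVia n Rψ (Dual.inD R R)) i) := by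
  have hL : DRing.HasLBaseChange
      (Algebra.TensorProduct.includeRight : A →ₐ[R] p.asIdeal.Fiber A).toRingHom :=
    LBC.hasLBaseChange _
  obtain ⟨h1, h2, h3, h4, h5⟩ := support_facts n ψ hψ Rψ adj p Q q hq d hd
  have hdz := (S1801.result R A n ψ hψ Rψ adj).2.2.2.2 p.asIdeal.ResidueField
  have hNC : IsNoetherianRing (p.asIdeal.Fiber A) := FibreTower.isNoetherianRing_fiber p.asIdeal
  rw [CMSch.cm_iff_atPrime (p.asIdeal.Fiber A) _ hdz Q]
  have h6 : (∃! i : ℤ, Nontrivial (LocalizedModule Q.asIdeal.primeCompl (Dual.HD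
      (p.asIdeal.Fiber A) ((DRing.LBaseChange (Algebra.TensorProduct.includeRight :
          A →ₐ[R] p.asIdeal.Fiber A).toRingHom).obj (Dual2.shriekVia n Rψ (Dual.inD R R))) i))) ↔
      ∃! i : ℤ, Q ∈ Module.support (p.asIdeal.Fiber A) (Dual.HD
      (p.asIdeal.Fiber A) ((DRing.LBaseChange (Algebra.TensorProduct.includeRight :
          A →ₐ[R] p.asIdeal.Fiber A).toRingHom).obj (Dual2.shriekVia n Rψ (Dual.inD R R))) i) :=
    existsUnique_congr fun i => Module.mem_support_iff.symm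
  rw [h6, existsUnique_iff _ _ h3 h4, existsUnique_iff _ _ h1 h2]
  exact h5.symm

/-- If `(κ(p) ⊗ A)_Q` is Cohen–Macaulay then `H^i(ω_{A/R})_q ≠ 0` iff `i = -d`. -/
theorem mem_support_iff_of_cm (p : PrimeSpectrum R) (Q : PrimeSpectrum (p.asIdeal.Fiber A))
    (q : PrimeSpectrum A) (hq : q.asIdeal = FibreTower.ctr p.asIdeal Q.asIdeal) (d : ℕ)
    (hd : FlatMor.fibreDimAt (Spec.map (CommRingCat.ofHom (algebraMap R A))) q = d)
    (hcm : LocCoh.IsCohenMacaulayLocalRing (Localization.AtPrime Q.asIdeal)) (i : ℤ) :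
    q ∈ Module.support A (Dual.HD A (Dual2.shriekVia n Rψ (Dual.inD R R)) i) ↔ i = -(d : ℤ) := by
  have hL : DRing.HasLBaseChange
      (Algebra.TensorProduct.includeRight : A →ₐ[R] p.asIdeal.Fiber A).toRingHom :=
    LBC.hasLBaseChange _
  obtain ⟨h1, h2, h3, h4, h5⟩ := support_facts n ψ hψ Rψ adj p Q q hq d hd
  rw [cm_iff_existsUnique n ψ hψ Rψ adj p Q q hq d hd] at hcm
  constructor
  · intro hi
    exact hcm.unique hi h1
  · rintro rfl
    exact h1

end Main

end Groth.Agent.Dual.H319.Core
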