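import Groth.Agent.S1789
import Groth.Agent.S1719
import Groth.Agent.LoccohB.FieldDual
import Groth.Agent.LoccohB.CMSch
import Groth.Agent.CalgC.LocalDim
import Groth.Agent.Ega4B.DimFT
import Groth.Agent.Ega4C.SupportLoc

/-!
# `φ^!(k)` at the generic points of a finite type algebra over a field

`k → C` of finite type, `ω = φ^!(k)`, `Q` a minimal prime of `C` with `dim C/Q = e`:
`H^i(ω)_Q ≠ 0` iff `i = -e`.
-/

set_option autoImplicit false
universe u
open CategoryTheory
attribute [local instance] HasDerivedCategory.standard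

namespace Groth.Agent.Dual.H319.GenPt

open Groth.Agent.LoccohB

theorem isNormalized_field (k : Type u) [Field k] : Dual.IsNormalized k (Dual.inD k k) := by
  intro i hi
  have h := (FieldDual.isDualizing_field k).ext_self_subsingleton i hi
  have hb : Function.Bijective (Algebra.linearMap k (IsLocalRing.ResidueField k)) :=
    ⟨(algebraMap k (IsLocalRing.ResidueField k)).injective, IsLocalRing.residue_surjective⟩
  let e : Dual.inD k (IsLocalRing.ResidueField k) ≅ Dual.inD k k :=
    (DerivedCategory.singleFunctor (ModuleCat.{u} k) 0).mapIso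
      (LinearEquiv.ofBijective _ hb).symm.toModuleIso
  exact InjRep.subsingleton_of_iso_left e (InjRep.subsingleton_of_iso (Iso.refl _) i h)

/-- The quotient of `C_m` by a prime `Q ⊆ m` has the dimension of `C/Q` (`m` maximal, `C` of finite type over a
field). -/
theorem ringKrullDim_localization_quotient (k : Type u) [Field k] {C : Type u} [CommRing C] [Algebra k C]
    [Algebra.FiniteType k C] (Q m : Ideal C) [Q.IsPrime] [hm : m.IsMaximal] (hQm : Q ≤ m) :
    ringKrullDim (Localization.AtPrime m ⧸ Q.map (algebraMap C (Localization.AtPrime m))) =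
      ringKrullDim (C ⧸ Q) := by
  let m' : Ideal (C ⧸ Q) := m.map (Ideal.Quotient.mk Q)
  have hcm : m'.comap (Ideal.Quotient.mk Q) = m := by
    rw [Ideal.comap_map_of_surjective _ Ideal.Quotient.mk_surjective]
    exact sup_eq_left.2 (by
      intro x hx
      rw [Ideal.mem_comap, Ideal.mem_bot, Ideal.Quotient.eq_zero_iff_mem] at hx
      exact hQm hx)
  have hm' : m'.IsMaximal := by
    rcases Ideal.map_eq_top_or_isMaximal_of_surjective (Ideal.Quotient.mk Q)
      Ideal.Quotient.mk_surjective hm with h | h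
    · exfalso
      apply hm.ne_top
      rw [← hcm]
      change (m.map (Ideal.Quotient.mk Q)).comap _ = ⊤
      rw [h, Ideal.comap_top]
    · exact h
  have h1 : Algebra.algebraMapSubmonoid (C ⧸ Q) m.primeCompl = m'.primeCompl := by
    ext x
    obtain ⟨x, rfl⟩ := Ideal.Quotient.mk_surjective x
    constructor
    · rintro ⟨y, hy, hyx⟩
      intro hx
      apply hy
      rw [← hcm]
      change Ideal.Quotient.mk Q y ∈ m'
      change Ideal.Quotient.mk Q y = _ at hyx
      rw [hyx]
      exact hx
    · intro hx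
      exact ⟨x, fun h => hx (Ideal.mem_map_of_mem _ h), rfl⟩
  have h2 : IsLocalization.AtPrime
      (Localization.AtPrime m ⧸ Q.map (algebraMap C (Localization.AtPrime m))) m' := by
    change IsLocalization m'.primeCompl _
    rw [← h1]
    infer_instance
  have h3 : Algebra.FiniteType k (C ⧸ Q) := inferInstance
  rw [IsLocalization.AtPrime.ringKrullDim_eq_height m', Ega4B.DimFT.height_maximal k]

/-- `H^i(φ^! k)_Q ≠ 0` iff `i = - dim C/Q`, for a minimal prime `Q`. -/
theorem mem_support_iff (k C : Type u) [Field k] [CommRing C] [IsNoetherianRing C] [Algebra k C] (n : ℕ)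
    (ψ : MvPolynomial (Fin n) k →ₐ[k] C) (hψ : Function.Surjective ψ)
    [DRing.HasLBaseChange (algebraMap k (MvPolynomial (Fin n) k))]
    (Rψ : Dual.D (MvPolynomial (Fin n) k) ⥤ Dual.D C) (adj : DRing.restrictD ψ.toRingHom ⊣ Rψ)
    (Q : PrimeSpectrum C) (hQ : Q.asIdeal ∈ minimalPrimes C) (e : ℕ)
    (he : ringKrullDim (C ⧸ Q.asIdeal) = e) (i : ℤ) :
    Q ∈ Module.support C (Dual.HD C (Dual2.shriekVia n Rψ (Dual.inD k k)) i) ↔ i = -(e : ℤ) := by
  have : Algebra.FiniteType k C := Algebra.FiniteType.of_surjective ψ hψ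
  obtain ⟨m, hm, hQm⟩ := Ideal.exists_le_maximal Q.asIdeal Q.2.ne_top
  have hL : DRing.HasLBaseChange (algebraMap C (Localization.AtPrime m)) := LBC.hasLBaseChange _
  have hmk : m.comap (algebraMap k C) = IsLocalRing.maximalIdeal k := by
    have h0 : m.comap (algebraMap k C) = ⊥ :=
      (Ideal.eq_bot_or_top _).resolve_right (Ideal.comap_ne_top _ hm.ne_top)
    rw [h0]
    exact IsLocalRing.eq_maximalIdeal Ideal.bot_isMaximal
  obtain ⟨h1, h2⟩ := Groth.Agent.S1789.result k C n ψ hψ Rψ adj m hmk (Dual.inD k k)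
    (FieldDual.isDualizing_field k) (isNormalized_field k)
  have hNm : IsNoetherianRing (Localization.AtPrime m) :=
    IsLocalization.isNoetherianRing m.primeCompl _ inferInstance
  let P : Ideal (Localization.AtPrime m) := Q.asIdeal.map (algebraMap C (Localization.AtPrime m))
  have hdisj : Disjoint (m.primeCompl : Set C) (Q.asIdeal : Set C) := by
    rw [Set.disjoint_left]
    intro x hx hxQ
    exact hx (hQm hxQ)
  have hPp : P.IsPrime := IsLocalization.isPrime_of_isPrime_disjoint m.primeCompl
    (Localization.AtPrime m) Q.asIdeal Q.2 hdisj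
  have hPc : P.comap (algebraMap C (Localization.AtPrime m)) = Q.asIdeal :=
    IsLocalization.under_map_of_isPrime_disjoint m.primeCompl (Localization.AtPrime m)
      Q.2 hdisj
  have hPm : P ∈ minimalPrimes (Localization.AtPrime m) := by
    refine ⟨⟨hPp, bot_le⟩, fun J hJ hJP => ?_⟩
    have hJ' : J.IsPrime := hJ.1
    have h3 : J.comap (algebraMap C (Localization.AtPrime m)) ≤ Q.asIdeal := by
      rw [← hPc]
      exact Ideal.comap_mono hJP
    have h4 : Q.asIdeal ≤ J.comap (algebraMap C (Localization.AtPrime m)) :=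
      hQ.2 ⟨inferInstance, bot_le⟩ h3
    exact Ideal.map_le_iff_le_comap.2 h4
  have h5 := Groth.Agent.S1719.result (Localization.AtPrime m) _ h1 h2 P hPm e (by
    rw [ringKrullDim_localization_quotient k Q.asIdeal m hQm, he]) i
  obtain ⟨e1⟩ := CMSch.lbcHD_localization m.primeCompl (Dual2.shriekVia n Rψ (Dual.inD k k)) i
  have h6 : Q = PrimeSpectrum.comap (algebraMap C (Localization.AtPrime m)) ⟨P, hPp⟩ :=
    PrimeSpectrum.ext hPc.symm
  rw [h6, ← Ega4C.SupportLoc.mem_support_localizedModule_iff m.primeCompl ⟨P, hPp⟩, ← h5,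
    ← LinearEquiv.support_eq e1]
  exact Module.mem_support_iff

end Groth.Agent.Dual.H319.GenPt
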